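import Groth.Prelude.Def_Algz

/-!
# Elementary facts about `Algz.codimPt` (helper13)
-/

set_option autoImplicit false

namespace Groth.Agent.Lib.Helper13.Delta

open Algz Specialization

universe u

variable {Y : Type u} [TopologicalSpace Y]

theorem codimPt_eq_zero_of_specializes (w v : Y) (h : w ⤳ v) (h' : v ⤳ w) :
    codimPt w v h = 0 := by
  unfold codimPt
  rw [Order.height_eq_zero]
  intro b _
  show toEquiv w ≤ b.1
  exact le_trans (show toEquiv w ≤ toEquiv v from h') b.2

theorem codimPt_self (w : Y) (h : w ⤳ w) : codimPt w w h = 0 :=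
  codimPt_eq_zero_of_specializes w w h h

theorem codimPt_le_one (w v : Y) (h : w ⤳ v)
    (himm : ∀ z : Y, w ⤳ z → z ⤳ v → z = w ∨ z = v) : codimPt w v h ≤ 1 := by
  unfold codimPt
  rw [show (1 : ℕ∞) = ((1 : ℕ) : ℕ∞) from rfl, Order.height_le_coe_iff]
  intro b hb
  have hb1 : toEquiv v ≤ b.1 := b.2
  have hb2 : b.1 ≤ toEquiv w := hb.le
  have hb3 : ¬ toEquiv w ≤ b.1 := hb.not_ge
  have hz1 : ofEquiv b.1 ⤳ v := hb1
  have hz2 : w ⤳ ofEquiv b.1 := hb2
  rcases himm (ofEquiv b.1) hz2 hz1 with hzw | hzv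
  · exact absurd (show toEquiv w ≤ b.1 by rw [← hzw]; exact le_rfl) hb3
  · have hmin : IsMin b := by
      intro c _
      show b.1 ≤ c.1
      have : b.1 = toEquiv v := by
        have := congrArg toEquiv hzv
        simpa using this
      rw [this]
      exact c.2
    rw [Order.height_eq_zero.mpr hmin]
    exact Nat.cast_pos.mpr Nat.one_pos

theorem one_le_codimPt [T0Space Y] (w v : Y) (h : w ⤳ v) (hne : w ≠ v) :
    1 ≤ codimPt w v h := by
  unfold codimPt
  rw [Order.one_le_iff_ne_zero, Order.height_ne_zero]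
  intro hmin
  have hle : (⟨toEquiv v, le_refl (toEquiv v)⟩ : Set.Ici (toEquiv v)) ≤
      ⟨toEquiv w, toEquiv_le_toEquiv.mpr h⟩ := toEquiv_le_toEquiv.mpr h
  have := hmin hle
  have h' : v ⤳ w := this
  exact hne (h.antisymm h').eq

end Groth.Agent.Lib.Helper13.Delta
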