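import Mathlib.Algebra.Module.FinitePresentation
import Mathlib.LinearAlgebra.TensorProduct.RightExactness
import Mathlib.LinearAlgebra.TensorProduct.Pi
import Mathlib.LinearAlgebra.DFinsupp

/-!
# Pure surjections and finitely presented modules (helper13)

* `sum_tmul_mkQ_eq_zero_iff`: for `Q = R^m / span(b_1, …, b_p)` and `x ∈ X^m`,
  `∑ x_k ⊗ [e_k] = 0` in `X ⊗ Q` iff `x = ∑_j b_j • y_j` (coordinatewise) for some `y ∈ X^p`.
* `exists_eq_sum_tmul`: every element of `X ⊗ (R^m / K)` is `∑ x_k ⊗ [e_k]`.
* `exists_lift_of_finitePresentation`: a finitely presented module has the lifting property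
  against surjections whose kernel inclusion is universally injective.
-/

set_option autoImplicit false

namespace Groth.Agent.Lib.Helper13.PureProj

open TensorProduct

universe u

variable {R : Type u} [CommRing R]

theorem piScalarRight_sum_tmul_single {X : Type u} [AddCommGroup X] [Module R X] {m : ℕ}
    (x : Fin m → X) :
    TensorProduct.piScalarRight R R X (Fin m)
      (∑ k, x k ⊗ₜ[R] (Pi.single k (1 : R) : Fin m → R)) = x := by
  ext k'
  simp [Pi.single_apply]

theorem piScalarRight_symm_apply' {X : Type u} [AddCommGroup X] [Module R X] {m : ℕ}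
    (x : Fin m → X) :
    (TensorProduct.piScalarRight R R X (Fin m)).symm x =
      ∑ k, x k ⊗ₜ[R] (Pi.single k (1 : R) : Fin m → R) := by
  rw [LinearEquiv.symm_apply_eq, piScalarRight_sum_tmul_single]

theorem sum_smul_single_eq {m : ℕ} (w : Fin m → R) :
    ∑ k, w k • (Pi.single k (1 : R) : Fin m → R) = w := by
  ext k'
  simp [Pi.single_apply]

theorem exists_eq_sum_tmul {X : Type u} [AddCommGroup X] [Module R X] {m : ℕ}
    (K : Submodule R (Fin m → R)) (t : X ⊗[R] ((Fin m → R) ⧸ K)) :
    ∃ x : Fin m → X, t = ∑ k, x k ⊗ₜ[R] K.mkQ (Pi.single k 1) := by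
  obtain ⟨T, rfl⟩ := LinearMap.lTensor_surjective X K.mkQ_surjective t
  refine ⟨TensorProduct.piScalarRight R R X (Fin m) T, ?_⟩
  conv_lhs => rw [← (TensorProduct.piScalarRight R R X (Fin m)).symm_apply_apply T,
    piScalarRight_symm_apply']
  rw [map_sum]
  simp only [LinearMap.lTensor_tmul]

theorem sum_tmul_mkQ_eq_zero_iff {X : Type u} [AddCommGroup X] [Module R X] {p m : ℕ}
    (b : Fin p → Fin m → R) (x : Fin m → X) :
    (∑ k, x k ⊗ₜ[R] (Submodule.span R (Set.range b)).mkQ (Pi.single k 1) = 0) ↔
      ∃ y : Fin p → X, ∀ k, x k = ∑ j, b j k • y j := by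
  classical
  set K := Submodule.span R (Set.range b) with hK
  constructor
  · intro h
    have hex : Function.Exact (Fintype.linearCombination R b) K.mkQ := by
      rw [LinearMap.exact_iff, Submodule.ker_mkQ, Fintype.range_linearCombination]
    have hex' := lTensor_exact X hex K.mkQ_surjective
    have hT : K.mkQ.lTensor X (∑ k, x k ⊗ₜ[R] (Pi.single k (1 : R) : Fin m → R)) = 0 := by
      rw [map_sum]
      simpa only [LinearMap.lTensor_tmul] using h
    obtain ⟨τ, hτ⟩ := (hex' _).mp hT
    obtain ⟨y, rfl⟩ : ∃ y : Fin p → X, τ = ∑ j, y j ⊗ₜ[R] (Pi.single j (1 : R) : Fin p → R) :=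
      ⟨TensorProduct.piScalarRight R R X (Fin p) τ, by
        rw [← piScalarRight_symm_apply', LinearEquiv.symm_apply_apply]⟩
    refine ⟨y, fun k => ?_⟩
    have h2 := congrArg (fun z => TensorProduct.piScalarRight R R X (Fin m) z k) hτ
    simp only [piScalarRight_sum_tmul_single] at h2
    rw [← h2, map_sum]
    simp only [LinearMap.lTensor_tmul, Fintype.linearCombination_apply_single, one_smul,
      map_sum, TensorProduct.piScalarRight_apply, TensorProduct.piScalarRightHom_tmul,
      Finset.sum_apply]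
  · rintro ⟨y, hy⟩
    simp_rw [hy]
    calc ∑ k, (∑ j, b j k • y j) ⊗ₜ[R] K.mkQ (Pi.single k 1)
        = ∑ j, y j ⊗ₜ[R] K.mkQ (∑ k, b j k • (Pi.single k (1 : R) : Fin m → R)) := by
          simp_rw [TensorProduct.sum_tmul, map_sum, TensorProduct.tmul_sum, map_smul,
            TensorProduct.smul_tmul]
          rw [Finset.sum_comm]
      _ = ∑ j, y j ⊗ₜ[R] K.mkQ (b j) := by
          simp_rw [sum_smul_single_eq]
      _ = 0 := by
          refine Finset.sum_eq_zero fun j _ => ?_
          rw [Submodule.mkQ_apply,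
            (Submodule.Quotient.mk_eq_zero K).mpr (Submodule.subset_span ⟨j, rfl⟩),
            TensorProduct.tmul_zero]

/-- The quotient `R^n / span(c_1, …, c_p)` lifts along a surjection whose kernel inclusion is
universally injective. -/
theorem exists_lift_quot {L N : Type u} [AddCommGroup L] [Module R L] [AddCommGroup N] [Module R N]
    (g : L →ₗ[R] N) (hg : Function.Surjective g)
    (hK : ∀ (Q : Type u) [AddCommGroup Q] [Module R Q],
      Function.Injective ((LinearMap.ker g).subtype.rTensor Q))
    {n p : ℕ} (c : Fin p → Fin n → R)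
    (φ' : ((Fin n → R) ⧸ Submodule.span R (Set.range c)) →ₗ[R] N) :
    ∃ ψ' : ((Fin n → R) ⧸ Submodule.span R (Set.range c)) →ₗ[R] L, g ∘ₗ ψ' = φ' := by
  classical
  let v : Fin n → N := fun k => φ' ((Submodule.span R (Set.range c)).mkQ (Pi.single k 1))
  have hv : ∀ j, ∑ k, c j k • v k = 0 := by
    intro j
    simp only [v, ← map_smul, ← map_sum, sum_smul_single_eq]
    rw [Submodule.mkQ_apply,
      (Submodule.Quotient.mk_eq_zero (Submodule.span R (Set.range c))).mpr (Submodule.subset_span ⟨j, rfl⟩), map_zero]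
  choose l hl using fun k => hg (v k)
  have hκ : ∀ j, ∑ k, c j k • l k ∈ LinearMap.ker g := by
    intro j
    simp only [LinearMap.mem_ker, map_sum, map_smul, hl, hv j]
  let κ : Fin p → LinearMap.ker g := fun j => ⟨_, hκ j⟩
  let b : Fin n → Fin p → R := fun k j => c j k
  have h1 : ∑ j, (κ j : L) ⊗ₜ[R] (Submodule.span R (Set.range b)).mkQ (Pi.single j 1) = 0 :=
    (sum_tmul_mkQ_eq_zero_iff b (fun j => (κ j : L))).mpr ⟨l, fun j => rfl⟩
  have h2 : ∑ j, κ j ⊗ₜ[R] (Submodule.span R (Set.range b)).mkQ (Pi.single j 1) = 0 := by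
    apply hK _
    rw [map_sum, map_zero]
    simpa only [LinearMap.rTensor_tmul, Submodule.subtype_apply] using h1
  obtain ⟨y, hy⟩ := (sum_tmul_mkQ_eq_zero_iff b κ).mp h2
  let l' : Fin n → L := fun k => l k - y k
  have hl'rel : ∀ j, ∑ k, c j k • l' k = 0 := by
    intro j
    have := congrArg Subtype.val (hy j)
    simp only [κ, b, Submodule.coe_sum, Submodule.coe_smul] at this
    simp only [l', smul_sub, Finset.sum_sub_distrib, ← this, sub_self]
  have hle : Submodule.span R (Set.range c) ≤ LinearMap.ker (Fintype.linearCombination R l') := by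
    rw [Submodule.span_le]
    rintro _ ⟨j, rfl⟩
    simp only [SetLike.mem_coe, LinearMap.mem_ker, Fintype.linearCombination_apply]
    exact hl'rel j
  refine ⟨(Submodule.span R (Set.range c)).liftQ (Fintype.linearCombination R l') hle, ?_⟩
  apply Submodule.linearMap_qext
  ext k
  simp only [LinearMap.coe_comp, Function.comp_apply, Submodule.mkQ_apply,
    Submodule.liftQ_apply, Fintype.linearCombination_apply_single, one_smul, l', map_sub, hl,
    LinearMap.coe_single]
  have hyk : g (y k) = 0 := (y k).2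
  rw [hyk, sub_zero]
  rfl

/-- A finitely presented module lifts along a surjection whose kernel inclusion is universally
injective. -/
theorem exists_lift_of_finitePresentation {F L N : Type u} [AddCommGroup F] [Module R F]
    [Module.FinitePresentation R F] [AddCommGroup L] [Module R L] [AddCommGroup N] [Module R N]
    (g : L →ₗ[R] N) (hg : Function.Surjective g)
    (hK : ∀ (Q : Type u) [AddCommGroup Q] [Module R Q],
      Function.Injective ((LinearMap.ker g).subtype.rTensor Q))
    (φ : F →ₗ[R] N) : ∃ ψ : F →ₗ[R] L, g ∘ₗ ψ = φ := by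
  obtain ⟨n, K, e, hKfg⟩ := Module.FinitePresentation.exists_fin R F
  obtain ⟨p, c, hc⟩ := Submodule.fg_iff_exists_fin_generating_family.mp hKfg
  subst hc
  obtain ⟨ψ', hψ'⟩ := exists_lift_quot g hg hK c (φ ∘ₗ e.symm.toLinearMap)
  refine ⟨ψ' ∘ₗ e.toLinearMap, ?_⟩
  ext x
  have := congrArg (fun f => f (e x)) hψ'
  simpa using this

end Groth.Agent.Lib.Helper13.PureProj
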